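import Cfsg.Agent.Lib.G2Spectrum.Mem

/-!
Elements of `G6` of orders `8`, `12`, `q² - 1` and `2 (q ± 1)`.
-/

set_option autoImplicit false

namespace CfsgLib.G2Spectrum

open Matrix CfsgLib.OrderDegrees.G2

variable {F : Type*} [Field F] [CharP F 2]

theorem orderOf_eq_of_pows {G : Type*} [Monoid G] {g : G} {n : ℕ} (hn : 0 < n) (h1 : g ^ n = 1)
    (h2 : ∀ p : ℕ, p.Prime → p ∣ n → g ^ (n / p) ≠ 1) : orderOf g = n :=
  orderOf_eq_of_pow_and_pow_div_prime hn h1 h2

theorem map_Y_zmod (r : Fin 12) :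
    (Y r (1 : ZMod 2)).map (ZMod.castHom (dvd_refl 2) F) = Y r (1 : F) := by
  ext i j
  simp [Y, evM, ev, map_list_sum, List.map_map, Function.comp_def]

/-- Orders of products of root elements can be computed over the field with two elements. -/
theorem orderOf_word (l : List (Fin 12)) {n : ℕ}
    (hn : orderOf ((l.map fun r => Y r (1 : ZMod 2)).prod) = n) :
    ∃ g ∈ G6 F, orderOf g = n := by
  refine ⟨(l.map fun r => Ygl r (1 : F)).prod, list_prod_mem fun x hx => ?_, ?_⟩
  · obtain ⟨r, -, rfl⟩ := List.mem_map.mp hx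
    exact Ygl_mem r 1
  · set f : Matrix (Fin 6) (Fin 6) (ZMod 2) →* Matrix (Fin 6) (Fin 6) F :=
      ((ZMod.castHom (dvd_refl 2) F).mapMatrix : _ →+* _).toMonoidHom
    have hf : Function.Injective f := fun A B h => by
      ext i j
      exact (ZMod.castHom (dvd_refl 2) F).injective (congrFun (congrFun h i) j)
    rw [← orderOf_units, ← hn, ← orderOf_injective f hf]
    congr 1
    rw [map_list_prod, List.map_map, ← Units.coeHom_apply, map_list_prod, List.map_map]
    congr 1
    exact List.map_congr_left fun r _ => (map_Y_zmod r).symm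

theorem exists_order_eight : ∃ g ∈ G6 F, orderOf g = 8 :=
  orderOf_word [0, 8] (orderOf_eq_of_pows (by norm_num) (by decide +kernel) fun p hp hd => by
    have h2 : p = 2 := (Nat.prime_dvd_prime_iff_eq hp Nat.prime_two).mp (hp.dvd_of_dvd_pow (n := 3) hd)
    subst h2
    decide +kernel)

theorem exists_order_twelve : ∃ g ∈ G6 F, orderOf g = 12 :=
  orderOf_word [0, 2, 9] (orderOf_eq_of_pows (by norm_num) (by decide +kernel) fun p hp hd => by
    have h : p = 2 ∨ p = 3 := by
      rcases (Nat.Prime.dvd_mul hp).mp (show p ∣ 2 ^ 2 * 3 from hd) with h | h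
      · exact Or.inl ((Nat.prime_dvd_prime_iff_eq hp Nat.prime_two).mp (hp.dvd_of_dvd_pow h))
      · exact Or.inr ((Nat.prime_dvd_prime_iff_eq hp Nat.prime_three).mp h)
    rcases h with rfl | rfl <;> decide +kernel)

variable [Fintype F]

/-- A matrix of determinant `δ` gives an element of `G6` of the same order. -/
theorem exists_of_gl2 (D : Matrix (Fin 2) (Fin 2) F) (hD : D.det ≠ 0) :
    ∃ g ∈ G6 F, orderOf g = orderOf D ∧
      (D.det = 1 → Commute g (Ygl 9 (1 : F))) := by
  have hd : IsUnit D.det := isUnit_iff_ne_zero.mpr hD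
  obtain ⟨u, hu⟩ : IsUnit D := (Matrix.isUnit_iff_isUnit_det _).mpr hd
  set g := Units.map (leviEmb F) u with hg
  have hgv : (g : Matrix (Fin 6) (Fin 6) F) = leviMat D := by rw [hg, Units.coe_map, hu]; rfl
  refine ⟨g, mem_of_inv (hgv ▸ inv_leviMat hD), ?_, fun h1 => Units.ext ?_⟩
  · rw [← orderOf_units, hgv]
    exact orderOf_injective (leviEmb F) leviMat_injective D
  · rw [Units.val_mul, Units.val_mul, Ygl_val, hgv]
    ext i j
    rw [Y_mul_apply]
    fin_cases i <;> fin_cases j <;>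
      simp [Matrix.mul_apply, Fin.sum_univ_six, leviMat, h1, Y, evM, Ys, pone, off, Yv, ev]

theorem exists_singer_two :
    ∃ D : Matrix (Fin 2) (Fin 2) F, D.det ≠ 0 ∧ orderOf D = Fintype.card F ^ 2 - 1 := by
  haveI : Fact (Nat.Prime 2) := ⟨Nat.prime_two⟩
  let K := FiniteField.Extension F 2 2
  letI : Fintype K := Fintype.ofFinite K
  obtain ⟨γ, hγ⟩ := IsCyclic.exists_generator (α := Kˣ)
  let b := Module.finBasisOfFinrankEq F K (FiniteField.finrank_extension F 2 2)
  refine ⟨Algebra.leftMulMatrix b (γ : K), ?_, ?_⟩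
  · intro h
    have hu : IsUnit (Algebra.leftMulMatrix b (γ : K)) := γ.isUnit.map _
    exact ((Matrix.isUnit_iff_isUnit_det _).mp hu).ne_zero h
  · rw [show orderOf (Algebra.leftMulMatrix b (γ : K)) = orderOf (γ : K) from
      orderOf_injective (Algebra.leftMulMatrix b).toRingHom.toMonoidHom (Algebra.leftMulMatrix_injective b) _,
      orderOf_units, orderOf_eq_card_of_forall_mem_zpowers hγ, Nat.card_units, FiniteField.natCard_extension,
      Nat.card_eq_fintype_card]

theorem exists_order_sq_sub_one : ∃ g ∈ G6 F, orderOf g = Fintype.card F ^ 2 - 1 := by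
  obtain ⟨D, hD, ho⟩ := exists_singer_two (F := F)
  obtain ⟨g, hg, hgo, -⟩ := exists_of_gl2 D hD
  exact ⟨g, hg, hgo.trans ho⟩

theorem orderOf_Ygl_nine : orderOf (Ygl 9 (1 : F)) = 2 := by
  refine orderOf_eq_prime ?_ fun h => ?_
  · apply Units.ext
    rw [Units.val_pow_eq_pow_val, sq, Ygl_val, Y_mul_self, Units.val_one]
  · have := congrArg (fun x : GL (Fin 6) F => (x : Matrix (Fin 6) (Fin 6) F) 1 3) h
    simp [Y, evM, Ys, pone, off, ev] at this

/-- Elements of order `2 N` from elements of odd order `N` of `SL₂`. -/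
theorem exists_order_two_mul (D : Matrix (Fin 2) (Fin 2) F) (hD : D.det = 1) (hN : Odd (orderOf D)) :
    ∃ g ∈ G6 F, orderOf g = 2 * orderOf D := by
  obtain ⟨g, hg, hgo, hc⟩ := exists_of_gl2 D (by rw [hD]; exact one_ne_zero)
  refine ⟨g * Ygl 9 1, mul_mem hg (Ygl_mem 9 1), ?_⟩
  rw [(hc hD).orderOf_mul_eq_mul_orderOf_of_coprime, orderOf_Ygl_nine, hgo, mul_comm]
  rw [orderOf_Ygl_nine, hgo]
  exact Nat.coprime_two_right.mpr hN

theorem exists_order_two_mul_succ {n : ℕ} (hn : 1 ≤ n) (hF : Fintype.card F = 2 ^ n) :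
    (∃ g ∈ G6 F, orderOf g = 2 * (2 ^ n + 1)) ∧ ∃ g ∈ G6 F, orderOf g = 2 * (2 ^ n - 1) := by
  obtain ⟨D, hD, ho⟩ := exists_singer_two (F := F)
  set q := 2 ^ n
  have hev : Even q := (Nat.even_pow' (by omega)).mpr even_two
  have hq : 2 ≤ q := hF ▸ Fintype.one_lt_card
  have hsq : q ^ 2 - 1 = (q + 1) * (q - 1) := by rw [← Nat.sq_sub_sq, one_pow]
  rw [hF, hsq] at ho
  constructor
  · have h1 : orderOf (D ^ (q - 1)) = q + 1 := by
      rw [orderOf_pow' D (by omega), ho, Nat.gcd_mul_left_left, Nat.mul_div_cancel _ (by omega)]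
    obtain ⟨g, hg, hgo⟩ := exists_order_two_mul (D ^ (q - 1))
      (by rw [det_pow, ← hF, FiniteField.pow_card_sub_one_eq_one _ hD]) (by rw [h1]; exact hev.add_one)
    exact ⟨g, hg, hgo.trans (by rw [h1])⟩
  · obtain ⟨γ, hγ⟩ := IsCyclic.exists_generator (α := Fˣ)
    let T : Fˣ →* Matrix (Fin 2) (Fin 2) F :=
      { toFun := fun x => diagonal ![(x : F), ((x⁻¹ : Fˣ) : F)]
        map_one' := by ext i j; fin_cases i <;> fin_cases j <;> simp
        map_mul' := fun x y => by
          rw [diagonal_mul_diagonal]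
          congr 1
          funext i
          fin_cases i <;> simp [mul_comm] }
    have hT : Function.Injective T := fun x y h => Units.ext (by
      simpa [T] using congrFun (congrFun h 0) 0)
    have h1 : orderOf (T γ) = q - 1 := by
      rw [orderOf_injective T hT, orderOf_eq_card_of_forall_mem_zpowers hγ, Nat.card_units,
        Nat.card_eq_fintype_card, hF]
    obtain ⟨g, hg, hgo⟩ := exists_order_two_mul (T γ) (by simp [T])
      (by rw [h1]; exact Nat.Even.sub_odd (by omega) hev odd_one)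
    exact ⟨g, hg, hgo.trans (by rw [h1])⟩

end CfsgLib.G2Spectrum
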