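import Cfsg.Agent.Lib.OrderDegrees.G2Iso

/-!
`G6 F` is the group of all matrices preserving the forms of the six dimensional model; the embedding
of `GL₂`.
-/

set_option autoImplicit false

namespace CfsgLib.G2Spectrum

open Matrix CfsgLib.OrderDegrees.G2

variable {F : Type*} [Field F] [CharP F 2]

/-- A block diagonal element of the Levi subgroup attached to a `2 × 2` matrix. -/
def leviMat (D : Matrix (Fin 2) (Fin 2) F) : Matrix (Fin 6) (Fin 6) F :=
  !![D.det⁻¹, 0, 0, 0, 0, 0;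
    0, D.det⁻¹ * D 0 0, D.det⁻¹ * D 0 1, 0, 0, 0;
    0, D.det⁻¹ * D 1 0, D.det⁻¹ * D 1 1, 0, 0, 0;
    0, 0, 0, D 0 0, D 0 1, 0;
    0, 0, 0, D 1 0, D 1 1, 0;
    0, 0, 0, 0, 0, D.det]

theorem leviMat_one : leviMat (1 : Matrix (Fin 2) (Fin 2) F) = 1 := by
  ext i j; fin_cases i <;> fin_cases j <;> simp [leviMat]

theorem leviMat_mul (D E : Matrix (Fin 2) (Fin 2) F) : leviMat (D * E) = leviMat D * leviMat E := by
  ext i j
  fin_cases i <;> fin_cases j <;>
    simp [leviMat, Matrix.mul_apply, Fin.sum_univ_six, Fin.sum_univ_two] <;> ring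

variable (F) in
def leviEmb : Matrix (Fin 2) (Fin 2) F →* Matrix (Fin 6) (Fin 6) F where
  toFun := leviMat
  map_one' := leviMat_one
  map_mul' := leviMat_mul

theorem leviMat_injective : Function.Injective (leviMat : Matrix (Fin 2) (Fin 2) F → _) := by
  intro D E h
  ext i j
  fin_cases i <;> fin_cases j
  · simpa [leviMat] using congrFun (congrFun h 3) 3
  · simpa [leviMat] using congrFun (congrFun h 3) 4
  · simpa [leviMat] using congrFun (congrFun h 4) 3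
  · simpa [leviMat] using congrFun (congrFun h 4) 4

theorem tri_levi_aux (i d a b c e : F) (u v z : Fin 6 → F) (M : Matrix (Fin 6) (Fin 6) F)
    (hM : M = !![i, 0, 0, 0, 0, 0; 0, i * a, i * b, 0, 0, 0; 0, i * c, i * e, 0, 0, 0;
      0, 0, 0, a, b, 0; 0, 0, 0, c, e, 0; 0, 0, 0, 0, 0, d]) :
    omega (M *ᵥ u) (M *ᵥ v) = i * d * (u 0 * v 5 + u 5 * v 0) +
        i * (a * e + b * c) * (u 1 * v 4 + u 4 * v 1 + u 2 * v 3 + u 3 * v 2) ∧
      quad (M *ᵥ u) = i * d * (u 0 * u 5) + i * (a * e + b * c) * (u 1 * u 4 + u 2 * u 3) ∧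
      tri (M *ᵥ u) (M *ᵥ v) (M *ᵥ z) = i * (a * e + b * c) * det3 0 3 4 u v z +
        d * i ^ 2 * (a * e + b * c) * det3 5 2 1 u v z := by
  subst hM
  refine ⟨?_, ?_, ?_⟩ <;>
    simp [omega, quad, tri, det3, mulVec, dotProduct, Fin.sum_univ_six] <;> ring_nf <;>
    simp [two_zero] <;> ring

theorem inv_leviMat {D : Matrix (Fin 2) (Fin 2) F} (hD : D.det ≠ 0) : Inv (leviMat D) := by
  have e : D 0 0 * D 1 1 + D 0 1 * D 1 0 = D.det := by
    rw [det_fin_two]; linear_combination (D 0 1 * D 1 0) * two_zero (F := F)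
  have ed : D.det⁻¹ * D.det = 1 := inv_mul_cancel₀ hD
  have aux := fun u v z => tri_levi_aux D.det⁻¹ D.det (D 0 0) (D 0 1) (D 1 0) (D 1 1) u v z (leviMat D) rfl
  simp only [e, ed, one_mul] at aux
  refine ⟨fun u v => ?_, fun _ => 0, fun u => ?_, fun u v z => ?_⟩
  · rw [(aux u v v).1, omega]; ring
  · rw [(aux u u u).2.1, quad]; ring
  · rw [(aux u v z).2.2, show D.det * D.det⁻¹ ^ 2 * D.det = (D.det⁻¹ * D.det) ^ 2 by ring, ed, tri]; ring

/-- The first basis vector. -/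
def e0 : Fin 6 → F := ![1, 0, 0, 0, 0, 0]

theorem e0_eq : (e0 : Fin 6 → F) = Pi.single 0 1 := by
  funext i; fin_cases i <;> simp [e0]

/-- The shape of a matrix preserving the forms and the line of the first basis vector. -/
structure LineShape (g : Matrix (Fin 6) (Fin 6) F) (c : F) : Prop where
  col : ∀ i, g i 0 = if i = 0 then c else 0
  row : ∀ j, g 5 j = if j = 5 then c⁻¹ else 0
  z31 : g 3 1 = 0
  z32 : g 3 2 = 0
  z41 : g 4 1 = 0
  z42 : g 4 2 = 0
  det : c * (g 3 3 * g 4 4 + g 3 4 * g 4 3) = 1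
  w13 : g 1 1 * g 4 3 + g 2 1 * g 3 3 = 0
  w14 : g 1 1 * g 4 4 + g 2 1 * g 3 4 = 1
  w23 : g 1 2 * g 4 3 + g 2 2 * g 3 3 = 1
  w24 : g 1 2 * g 4 4 + g 2 2 * g 3 4 = 0

theorem lineShape_of_inv {g k : Matrix (Fin 6) (Fin 6) F} (hgk : g * k = 1) (hg : Inv g) (hk : Inv k)
    {c : F} (hc : c ≠ 0) (h0 : g *ᵥ e0 = c • e0) : LineShape g c := by
  obtain ⟨hw, l, hq, ht⟩ := hg
  have hl : l e0 = 0 := by
    have h := hq e0
    rw [h0] at h
    refine pow_eq_zero_iff two_ne_zero |>.mp ?_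
    simpa [quad, e0] using h.symm
  have hcol : ∀ i, g i 0 = if i = 0 then c else 0 := by
    intro i
    have h := congrFun h0 i
    rw [e0_eq] at h
    simpa [Pi.single_apply] using h
  have hrow : ∀ u, (g *ᵥ u) 5 = c⁻¹ * u 5 := by
    intro u
    have h := hw e0 u
    rw [h0] at h
    simp [omega, e0] at h
    rw [← h, inv_mul_cancel_left₀ hc]
  have hrow' : ∀ j, g 5 j = if j = 5 then c⁻¹ else 0 := by
    intro j
    have h := hrow (Pi.single j 1)
    simpa [Pi.single_apply, eq_comm] using h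
  have hz : ∀ v z : Fin 6 → F, v 5 = 0 → z 5 = 0 →
      c * ((g *ᵥ v) 3 * (g *ᵥ z) 4 + (g *ᵥ v) 4 * (g *ᵥ z) 3) = v 3 * z 4 + v 4 * z 3 := by
    intro v z hv hz
    have h := ht e0 v z
    rw [h0, hl] at h
    have hv5 : (g *ᵥ v) 5 = 0 := by rw [hrow, hv, mul_zero]
    have hz5 : (g *ᵥ z) 5 = 0 := by rw [hrow, hz, mul_zero]
    simpa [tri, det3, omega, e0, hv5, hz5, hv, hz] using h
  have e' : ∀ u, g *ᵥ (k *ᵥ u) = u := fun u => by rw [mulVec_mulVec, hgk, one_mulVec]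
  have hk5 : ∀ u : Fin 6 → F, u 5 = 0 → (k *ᵥ u) 5 = 0 := fun u hu => by
    have h := hrow (k *ᵥ u)
    rw [e', hu] at h
    exact (mul_eq_zero.mp h.symm).resolve_left (inv_ne_zero hc)
  have h3 : ∀ j : Fin 6, j = 1 ∨ j = 2 → c * g 4 j = 0 := fun j hj => by
    have h := hz (Pi.single j 1) (k *ᵥ Pi.single 3 1) (by rcases hj with rfl | rfl <;> simp) (hk5 _ (by simp))
    rw [e'] at h
    rcases hj with rfl | rfl <;> simpa using h
  have h4 : ∀ j : Fin 6, j = 1 ∨ j = 2 → c * g 3 j = 0 := fun j hj => by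
    have h := hz (Pi.single j 1) (k *ᵥ Pi.single 4 1) (by rcases hj with rfl | rfl <;> simp) (hk5 _ (by simp))
    rw [e'] at h
    rcases hj with rfl | rfl <;> simpa using h
  have z31 : g 3 1 = 0 := (mul_eq_zero.mp (h4 1 (Or.inl rfl))).resolve_left hc
  have z32 : g 3 2 = 0 := (mul_eq_zero.mp (h4 2 (Or.inr rfl))).resolve_left hc
  have z41 : g 4 1 = 0 := (mul_eq_zero.mp (h3 1 (Or.inl rfl))).resolve_left hc
  have z42 : g 4 2 = 0 := (mul_eq_zero.mp (h3 2 (Or.inr rfl))).resolve_left hc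
  have d := hz (Pi.single 3 1) (Pi.single 4 1) (by simp) (by simp)
  simp at d
  refine ⟨hcol, hrow', z31, z32, z41, z42, by linear_combination d, ?_, ?_, ?_, ?_⟩
  · have := omega_col hw 1 3; simpa [hrow', z31, z32, z41, z42] using this
  · have := omega_col hw 1 4; simpa [hrow', z31, z32, z41, z42] using this
  · have := omega_col hw 2 3; simpa [hrow', z31, z32, z41, z42] using this
  · have := omega_col hw 2 4; simpa [hrow', z31, z32, z41, z42] using this

theorem Y_mul_apply (r : Fin 12) (t : F) (M : Matrix (Fin 6) (Fin 6) F) (i j : Fin 6) :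
    (Y r t * M) i j = Yv r t (fun k => M k j) i := by
  rw [← Y_mulVec]
  rfl

theorem mem_of_mul_mem {g k : GL (Fin 6) F} (hk : k ∈ G6 F) (h : k * g ∈ G6 F) : g ∈ G6 F := by
  have := mul_mem (inv_mem hk) h
  rwa [inv_mul_cancel_left] at this

/-- the elements preserving the forms and fixing the first basis vector -/
def Fixed (g : GL (Fin 6) F) : Prop :=
  Inv (g : Matrix (Fin 6) (Fin 6) F) ∧ (g : Matrix (Fin 6) (Fin 6) F) *ᵥ e0 = e0

theorem Fixed.step {g : GL (Fin 6) F} (hg : Fixed g) {r : Fin 12} (hr : 5 ≤ (r : ℕ)) (t : F) :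
    Fixed (Ygl r t * g) := by
  refine ⟨(inv_Y r t).mul hg.1, ?_⟩
  rw [Units.val_mul, Ygl_val, ← mulVec_mulVec, hg.2, Y_mulVec]
  fin_cases r <;> first
    | (simp at hr; done)
    | (funext i; fin_cases i <;> simp [Yv, off, e0])

theorem Fixed.shape {g : GL (Fin 6) F} (hg : Fixed g) : LineShape (g : Matrix (Fin 6) (Fin 6) F) 1 :=
  lineShape_of_inv g.mul_inv hg.1 (CfsgLib.OrderDegrees.G2.Inv.inv g.mul_inv hg.1) one_ne_zero (by rw [hg.2, one_smul])

theorem Fixed.mem_of_levi {g : GL (Fin 6) F} (hg : Fixed g)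
    (h33 : (g : Matrix (Fin 6) (Fin 6) F) 3 3 = 1) (h34 : (g : Matrix (Fin 6) (Fin 6) F) 3 4 = 0)
    (h43 : (g : Matrix (Fin 6) (Fin 6) F) 4 3 = 0) : g ∈ G6 F := by
  set M := (g : Matrix (Fin 6) (Fin 6) F) with hM
  refine mem_of_mul_mem (Ygl_mem 8 (M 3 5)) ?_
  set g1 := Ygl 8 (M 3 5) * g with hg1
  refine mem_of_mul_mem (Ygl_mem 7 ((g1 : Matrix (Fin 6) (Fin 6) F) 4 5)) ?_
  set g2 := Ygl 7 ((g1 : Matrix (Fin 6) (Fin 6) F) 4 5) * g1 with hg2
  refine mem_of_mul_mem (Ygl_mem 9 ((g2 : Matrix (Fin 6) (Fin 6) F) 1 3)) ?_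
  set g3 := Ygl 9 ((g2 : Matrix (Fin 6) (Fin 6) F) 1 3) * g2 with hg3
  refine mem_of_mul_mem (Ygl_mem 10 ((g3 : Matrix (Fin 6) (Fin 6) F) 2 5)) ?_
  set g4 := Ygl 10 ((g3 : Matrix (Fin 6) (Fin 6) F) 2 5) * g3 with hg4
  refine mem_of_mul_mem (Ygl_mem 11 ((g4 : Matrix (Fin 6) (Fin 6) F) 1 5)) ?_
  set g5 := Ygl 11 ((g4 : Matrix (Fin 6) (Fin 6) F) 1 5) * g4 with hg5
  have f5 : Fixed g5 := ((((hg.step (r := 8) (by simp) _).step (r := 7) (by simp) _).step (r := 9)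
    (by simp) _).step (r := 10) (by simp) _).step (r := 11) (by simp) _
  have s0 := hg.shape
  rw [← hM] at s0
  have h44 : M 4 4 = 1 := by simpa [h33, h34, h43] using s0.det
  have h55 : M 5 5 = 1 := by simp [s0.row]
  have h53 : M 5 3 = 0 := by simp [s0.row]
  have h54 : M 5 4 = 0 := by simp [s0.row]
  have N33 : (g5 : Matrix (Fin 6) (Fin 6) F) 3 3 = 1 := by
    simp [hg5, hg4, hg3, hg2, hg1, Y_mul_apply, Yv, off, ← hM, h33, h53]
  have N34 : (g5 : Matrix (Fin 6) (Fin 6) F) 3 4 = 0 := by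
    simp [hg5, hg4, hg3, hg2, hg1, Y_mul_apply, Yv, off, ← hM, h34, h54]
  have N43 : (g5 : Matrix (Fin 6) (Fin 6) F) 4 3 = 0 := by
    simp [hg5, hg4, hg3, hg2, hg1, Y_mul_apply, Yv, off, ← hM, h43, h53]
  have N35 : (g5 : Matrix (Fin 6) (Fin 6) F) 3 5 = 0 := by
    simp [hg5, hg4, hg3, hg2, hg1, Y_mul_apply, Yv, off, ← hM, h55, CharTwo.add_self_eq_zero]
  have N45 : (g5 : Matrix (Fin 6) (Fin 6) F) 4 5 = 0 := by
    simp [hg5, hg4, hg3, hg2, hg1, Y_mul_apply, Yv, off, ← hM, h55, CharTwo.add_self_eq_zero]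
  have N13 : (g5 : Matrix (Fin 6) (Fin 6) F) 1 3 = 0 := by
    simp [hg5, hg4, hg3, hg2, hg1, Y_mul_apply, Yv, off, ← hM, h33, h43, h53, CharTwo.add_self_eq_zero]
  have N25 : (g5 : Matrix (Fin 6) (Fin 6) F) 2 5 = 0 := by
    simp [hg5, hg4, hg3, hg2, hg1, Y_mul_apply, Yv, off, ← hM, h55, CharTwo.add_self_eq_zero]
  have N15 : (g5 : Matrix (Fin 6) (Fin 6) F) 1 5 = 0 := by
    simp [hg5, hg4, hg3, hg2, hg1, Y_mul_apply, Yv, off, ← hM, h55, CharTwo.add_self_eq_zero]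
  set N := (g5 : Matrix (Fin 6) (Fin 6) F) with hN
  have s := f5.shape
  rw [← hN] at s
  have N44 : N 4 4 = 1 := by simpa [N33, N34, N43] using s.det
  have N21 : N 2 1 = 0 := by simpa [N33, N43] using s.w13
  have N11 : N 1 1 = 1 := by simpa [N34, N44] using s.w14
  have N22 : N 2 2 = 1 := by simpa [N33, N43] using s.w23
  have N12 : N 1 2 = 0 := by simpa [N34, N44] using s.w24
  obtain ⟨hw, l, hq, ht⟩ := f5.1
  rw [← hN] at hw hq ht
  have n50 : N 5 0 = 0 := by simp [s.row]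
  have n51 : N 5 1 = 0 := by simp [s.row]
  have n52 : N 5 2 = 0 := by simp [s.row]
  have n53 : N 5 3 = 0 := by simp [s.row]
  have n54 : N 5 4 = 0 := by simp [s.row]
  have n55 : N 5 5 = 1 := by simp [s.row]
  have N01 : N 0 1 = 0 := by
    simpa [n51, n55, s.z31, s.z32, s.z41, s.z42, N35, N45, N11, N21] using omega_col hw 1 5
  have N02 : N 0 2 = 0 := by
    simpa [n52, n55, s.z31, s.z32, s.z41, s.z42, N35, N45, N12, N22] using omega_col hw 2 5
  have N03 : N 0 3 = 0 := by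
    simpa [n53, n55, N33, N43, N25, N15, N35, N45] using omega_col hw 3 5
  have N04 : N 0 4 = 0 := by
    simpa [n54, n55, N34, N44, N25, N15, N35, N45] using omega_col hw 4 5
  have N24 : N 2 4 = 0 := by
    simpa [n53, n54, N33, N34, N43, N44, N13] using omega_col hw 3 4
  have hcol : ∀ j, N *ᵥ Pi.single j 1 = fun i => N i j := fun j => by rw [mulVec_single_one]; rfl
  have l3 : l (Pi.single 3 1) = 0 := by
    have := ht (Pi.single 4 1) (Pi.single 1 1) (Pi.single 3 1)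
    simpa [hcol, tri, det3, omega, s.z31, s.z41, n51, n53, n54, N11, N21, N01, N03, N04, N13, N24, N33,
      N34, N43, N44, eq_comm] using this
  have l4 : l (Pi.single 4 1) = 0 := by
    have := ht (Pi.single 3 1) (Pi.single 2 1) (Pi.single 4 1)
    simpa [hcol, tri, det3, omega, s.z32, s.z42, n52, n53, n54, N12, N22, N02, N03, N04, N13, N24, N33,
      N34, N43, N44, eq_comm] using this
  have N23 : N 2 3 = 0 := by
    have := hq (Pi.single 3 1)
    simpa [hcol, quad, l3, n53, N03, N13, N33, N43] using this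
  have N14 : N 1 4 = 0 := by
    have := hq (Pi.single 4 1)
    simpa [hcol, quad, l4, n54, N04, N24, N34, N44] using this
  have N05 : N 0 5 = 0 := by
    have := ht (Pi.single 3 1) (Pi.single 4 1) (Pi.single 5 1)
    simpa [hcol, tri, det3, omega, l3, l4, n53, n54, n55, N03, N04, N13, N14, N23, N24, N33, N34, N43,
      N44, N35, N45, N15, N25] using this
  have : g5 = 1 := by
    apply Units.ext
    rw [← hN, Units.val_one]
    ext i j
    fin_cases i <;> fin_cases j <;> simp [s.col, s.row, s.z31, s.z32, s.z41, s.z42, N11, N12, N21, N22,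
      N01, N02, N03, N04, N05, N13, N14, N15, N23, N24, N25, N33, N34, N35, N43, N44, N45]
  rw [this]
  exact one_mem _

theorem Fixed.mem {g : GL (Fin 6) F} (hg : Fixed g) : g ∈ G6 F := by
  wlog h : (g : Matrix (Fin 6) (Fin 6) F) 4 3 ≠ 0 generalizing g
  · rw [not_not] at h
    refine mem_of_mul_mem (Ygl_mem 5 1) (this (hg.step (r := 5) (by simp) 1) ?_)
    have d := hg.shape.det
    simp [h] at d
    simp [Y_mul_apply, Yv, off, h]
    intro h0
    simp [h0] at d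
  set M := (g : Matrix (Fin 6) (Fin 6) F) with hM
  refine mem_of_mul_mem (Ygl_mem 6 ((M 3 3 + 1) / M 4 3)) ?_
  set g1 := Ygl 6 ((M 3 3 + 1) / M 4 3) * g with hg1
  refine mem_of_mul_mem (Ygl_mem 5 (M 4 3)) ?_
  set g2 := Ygl 5 (M 4 3) * g1 with hg2
  refine mem_of_mul_mem (Ygl_mem 6 ((g2 : Matrix (Fin 6) (Fin 6) F) 3 4)) ?_
  have f1 := hg.step (r := 6) (by simp) ((M 3 3 + 1) / M 4 3)
  have f2 := f1.step (r := 5) (by simp) (M 4 3)
  have a33 : (g2 : Matrix (Fin 6) (Fin 6) F) 3 3 = 1 := by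
    simp [hg2, hg1, Y_mul_apply, Yv, off, ← hM, div_mul_cancel₀ _ h]
    rw [← add_assoc, CharTwo.add_self_eq_zero, zero_add]
  have a43 : (g2 : Matrix (Fin 6) (Fin 6) F) 4 3 = 0 := by
    simp [hg2, hg1, Y_mul_apply, Yv, off, ← hM, div_mul_cancel₀ _ h]
    linear_combination M 4 3 * (M 3 3 + 1) * two_zero (F := F)
  rw [← hg1, ← hg2] at f2
  have a44 : (g2 : Matrix (Fin 6) (Fin 6) F) 4 4 = 1 := by simpa [a33, a43] using f2.shape.det
  refine (f2.step (r := 6) (by simp) _).mem_of_levi ?_ ?_ ?_ <;>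
    simp [Y_mul_apply, Yv, off, a33, a43, a44, CharTwo.add_self_eq_zero]

/-- Preserving the forms is the same as lying in `G6`. -/
theorem mem_of_inv [Finite F] {g : GL (Fin 6) F} (hg : Inv (g : Matrix (Fin 6) (Fin 6) F)) : g ∈ G6 F := by
  have hne : (g : Matrix (Fin 6) (Fin 6) F) *ᵥ e0 ≠ 0 := fun h => by
    have := congrArg (fun v => ((g⁻¹ : GL (Fin 6) F) : Matrix (Fin 6) (Fin 6) F) *ᵥ v) h
    rw [mulVec_mulVec, Units.inv_mul, one_mulVec, mulVec_zero] at this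
    simpa [e0] using congrFun this 0
  obtain ⟨k, hk, hkv⟩ := exists_move hne
  exact mem_of_mul_mem hk (Fixed.mem ⟨(inv_of_mem hk).mul hg, by
    rw [Units.val_mul, ← mulVec_mulVec, hkv]; rfl⟩)

end CfsgLib.G2Spectrum
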