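import Cfsg.Agent.Lib.G2Spectrum.Shape

/-!
The element orders of `G6` divide `8, 12, 2(q ± 1), q² - 1, q² + q + 1` or `q² - q + 1`.
-/

set_option autoImplicit false

namespace CfsgLib.G2Spectrum

open Matrix Polynomial CfsgLib.OrderDegrees.G2

section additive

variable {Γ : Type*} [AddCommGroup Γ]

set_option maxHeartbeats 4000000 in
theorem cases_distinct (s : Γ →+ Γ) (hinj : Function.Injective s) (a b c : Γ) (h : a + b + c = 0)
    (na : a + a ≠ 0) (nb : b + b ≠ 0) (nc : c + c ≠ 0)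
    (ab : a ≠ b) (ab' : a + b ≠ 0) (ac : a ≠ c) (ac' : a + c ≠ 0) (bc : b ≠ c) (bc' : b + c ≠ 0)
    (ha : s a = a ∨ s a = -a ∨ s a = b ∨ s a = -b ∨ s a = c ∨ s a = -c)
    (hb : s b = a ∨ s b = -a ∨ s b = b ∨ s b = -b ∨ s b = c ∨ s b = -c)
    (hc : s c = a ∨ s c = -a ∨ s c = b ∨ s c = -b ∨ s c = c ∨ s c = -c) :
    (s (s a) = a ∧ s (s b) = b ∧ s (s c) = c) ∨
      (s (s a) + s a + a = 0 ∧ s (s b) + s b + b = 0 ∧ s (s c) + s c + c = 0) ∨
      (s (s a) + a = s a ∧ s (s b) + b = s b ∧ s (s c) + c = s c) := by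
  have hsum : s a + s b + s c = 0 := by rw [← map_add, ← map_add, h, map_zero]
  have n1 : s a ≠ s b := fun e => ab (hinj e)
  have n2 : s a + s b ≠ 0 := fun e => ab' (hinj (by rw [map_add, e, map_zero]))
  have n3 : s a ≠ s c := fun e => ac (hinj e)
  have n4 : s a + s c ≠ 0 := fun e => ac' (hinj (by rw [map_add, e, map_zero]))
  have n5 : s b ≠ s c := fun e => bc (hinj e)
  have n6 : s b + s c ≠ 0 := fun e => bc' (hinj (by rw [map_add, e, map_zero]))
  rcases ha with ha | ha | ha | ha | ha | ha <;> rcases hb with hb | hb | hb | hb | hb | hb <;>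
    rcases hc with hc | hc | hc | hc | hc | hc <;>
    simp only [ha, hb, hc, map_neg, neg_neg] at * <;> grind

end additive

universe u

variable {E : Type*} [Field E] [CharP E 2]

theorem eq_one_of_self_inv {x : E} (hx : x * x = 1) : x = 1 := by
  have h : (x + 1) ^ 2 = 0 := by rw [CharTwo.add_sq, sq, hx, one_pow, CharTwo.add_self_eq_zero]
  exact CharTwo.add_eq_zero.mp (pow_eq_zero_iff two_ne_zero |>.mp h)

theorem pow_sq_sub_one {q : ℕ} (hq : 2 ≤ q) {x : E} (hx : x ≠ 0) (h : x ^ (q * q) = x) :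
    x ^ (q ^ 2 - 1) = 1 := by
  have h' : q ^ 2 - 1 + 1 = q * q := by
    rw [sq]; have := Nat.le_mul_self q; omega
  apply mul_right_cancel₀ hx
  rw [← pow_succ, h', h, one_mul]

theorem pow_sq_sub {q : ℕ} (hq : 2 ≤ q) {x : E} (hx : x ≠ 0) (h : x ^ (q * q) * x = x ^ q) :
    x ^ (q ^ 2 - q + 1) = 1 := by
  have h' : q + (q ^ 2 - q + 1) = q * q + 1 := by
    rw [sq]; have := Nat.le_mul_self q; omega
  apply mul_left_cancel₀ (pow_ne_zero q hx)
  rw [← pow_add, h', pow_succ, h, mul_one]

theorem ne_inv_of_ne_one {x : E} (h0 : x ≠ 0) (h1 : x ≠ 1) : x ≠ x⁻¹ := fun h =>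
  h1 (eq_one_of_self_inv (by nth_rewrite 2 [h]; exact mul_inv_cancel₀ h0))

/-- The bounds on the roots in the semisimple case. -/
theorem exponent_of_distinct {q : ℕ} (hq : 2 ≤ q) (hinj : Function.Injective fun x : E => x ^ q)
    {a b c : E} (habc : a * b * c = 1) (hnd : (rootSet a b c).Nodup)
    (hmem : ∀ x ∈ rootSet a b c, x ^ q ∈ rootSet a b c) :
    ∃ N ∈ ({q ^ 2 - 1, q ^ 2 + q + 1, q ^ 2 - q + 1} : Set ℕ), ∀ x ∈ rootSet a b c, x ^ N = 1 := by
  have ha : a ≠ 0 := by rintro rfl; simp at habc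
  have hb : b ≠ 0 := by rintro rfl; simp at habc
  have hc : c ≠ 0 := by rintro rfl; simp at habc
  simp [rootSet, Multiset.nodup_cons] at hnd
  let A := Additive.ofMul (Units.mk0 a ha)
  let B := Additive.ofMul (Units.mk0 b hb)
  let C := Additive.ofMul (Units.mk0 c hc)
  have conv : ∀ X Y : Additive Eˣ, X = Y ↔ ((Additive.toMul X : Eˣ) : E) = ((Additive.toMul Y : Eˣ) : E) :=
    fun X Y => by rw [← Units.ext_iff]; rfl
  let s : Additive Eˣ →+ Additive Eˣ := q • AddMonoidHom.id _
  have hs : ∀ X, s X = q • X := fun X => rfl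
  have hsinj : Function.Injective s := fun X Y h => by
    rw [hs, hs, conv] at h
    exact (conv X Y).mpr (hinj (by simpa using h))
  obtain ⟨ma, mb, mc⟩ : (a ^ q ∈ rootSet a b c) ∧ (b ^ q ∈ rootSet a b c) ∧ (c ^ q ∈ rootSet a b c) :=
    ⟨hmem a (by simp [rootSet]), hmem b (by simp [rootSet]), hmem c (by simp [rootSet])⟩
  simp only [rootSet, Multiset.insert_eq_cons, Multiset.mem_cons, Multiset.mem_singleton] at ma mb mc
  have := cases_distinct s hsinj A B C
    (by rw [conv]; simpa [A, B, C] using habc)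
    (by rw [Ne, conv]; simp [A]; exact fun h => hnd.1.1 (eq_inv_of_mul_eq_one_left h))
    (by rw [Ne, conv]; simp [B]; intro h; rw [eq_one_of_self_inv h] at hnd; simp at hnd)
    (by rw [Ne, conv]; simp [C]; intro h; rw [eq_one_of_self_inv h] at hnd; simp at hnd)
    (by rw [Ne, conv]; simp [A, B]; intro h; simp_all)
    (by rw [Ne, conv]; simp [A, B]; intro h; have := eq_inv_of_mul_eq_one_left h; simp_all)
    (by rw [Ne, conv]; simp [A, C]; intro h; simp_all)
    (by rw [Ne, conv]; simp [A, C]; intro h; have := eq_inv_of_mul_eq_one_left h; simp_all)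
    (by rw [Ne, conv]; simp [B, C]; intro h; simp_all)
    (by rw [Ne, conv]; simp [B, C]; intro h; have := eq_inv_of_mul_eq_one_left h; simp_all)
    (by simp only [conv, hs]; simpa [A, B, C] using ma)
    (by simp only [conv, hs]; simpa [A, B, C] using mb)
    (by simp only [conv, hs]; simpa [A, B, C] using mc)
  simp only [hs, ← mul_smul] at this
  simp only [conv] at this
  simp [A, B, C] at this
  have hall : ∀ N, a ^ N = 1 → b ^ N = 1 → c ^ N = 1 → ∀ x ∈ rootSet a b c, x ^ N = 1 := by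
    intro N h1 h2 h3 x hx
    simp only [rootSet, Multiset.insert_eq_cons, Multiset.mem_cons, Multiset.mem_singleton] at hx
    rcases hx with rfl | rfl | rfl | rfl | rfl | rfl <;> simp [h1, h2, h3]
  have hqq : q ^ 2 = q * q := sq q
  have hle : q ≤ q * q := Nat.le_mul_self q
  rcases this with ⟨h1, h2, h3⟩ | ⟨h1, h2, h3⟩ | ⟨h1, h2, h3⟩
  · exact ⟨q ^ 2 - 1, by simp,
      hall _ (pow_sq_sub_one hq ha h1) (pow_sq_sub_one hq hb h2) (pow_sq_sub_one hq hc h3)⟩
  · refine ⟨q ^ 2 + q + 1, by simp, hall _ ?_ ?_ ?_⟩ <;> rw [pow_succ, pow_add, hqq] <;> assumption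
  · exact ⟨q ^ 2 - q + 1, by simp,
      hall _ (pow_sq_sub hq ha h1) (pow_sq_sub hq hb h2) (pow_sq_sub hq hc h3)⟩

theorem exponent_of_roots [DecidableEq E] {q : ℕ} (hq : 2 ≤ q) (hinj : Function.Injective fun x : E => x ^ q)
    {a b c : E} (habc : a * b * c = 1)
    (hmap : (rootSet a b c).map (fun x => x ^ q) = rootSet a b c) :
    ∃ n k N : ℕ, n ∈ ({8, 12, 2 * (q + 1), 2 * (q - 1), q ^ 2 - 1, q ^ 2 + q + 1, q ^ 2 - q + 1} : Set ℕ) ∧
      2 ^ k * N = n ∧ ∀ x ∈ rootSet a b c, x ^ N = 1 ∧ (rootSet a b c).count x ≤ 2 ^ k := by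
  have hmem : ∀ x ∈ rootSet a b c, x ^ q ∈ rootSet a b c := fun x hx => by
    rw [← hmap]; exact Multiset.mem_map_of_mem (fun y => y ^ q) hx
  have perm1 : rootSet a b c = rootSet b a c := by
    simp only [rootSet, Multiset.insert_eq_cons, ← Multiset.singleton_add]; abel
  have perm2 : rootSet a b c = rootSet a c b := by
    simp only [rootSet, Multiset.insert_eq_cons, ← Multiset.singleton_add]; abel
  have perm3 : rootSet a b c = rootSet c b a := by
    simp only [rootSet, Multiset.insert_eq_cons, ← Multiset.singleton_add]; abel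
  have hfix : ∀ {x : E}, x ≠ 0 → (x ^ q = x ∨ x ^ q = x⁻¹) → x ^ (q - 1) = 1 ∨ x ^ (q + 1) = 1 := by
    intro x hx h
    rcases h with h | h
    · exact Or.inl (mul_right_cancel₀ hx (by rw [← pow_succ, Nat.sub_add_cancel (by omega), h, one_mul]))
    · exact Or.inr (by rw [pow_succ, h, inv_mul_cancel₀ hx])
  by_cases h1 : a = 1 ∨ b = 1 ∨ c = 1
  · obtain ⟨x, hx0, hR⟩ : ∃ x : E, x ≠ 0 ∧ rootSet a b c = rootSet x x⁻¹ 1 := by
      rcases h1 with rfl | rfl | rfl
      · exact ⟨c, fun h => by simp [h] at habc, by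
          rw [perm3, eq_inv_of_mul_eq_one_left (a := b) (b := c) (by simpa using habc)]⟩
      · exact ⟨a, fun h => by simp [h] at habc, by
          rw [perm2, eq_inv_of_mul_eq_one_right (a := a) (b := c) (by simpa using habc)]⟩
      · exact ⟨a, fun h => by simp [h] at habc, by
          rw [eq_inv_of_mul_eq_one_right (a := a) (b := b) (by simpa using habc)]⟩
    rw [hR] at hmap hmem ⊢
    by_cases hx1 : x = 1
    · refine ⟨8, 3, 1, by simp, rfl, fun y hy => ⟨?_, (Multiset.count_le_card _ _).trans ?_⟩⟩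
      · subst hx1; simpa [rootSet] using hy
      · simp [rootSet]
    · have hxi : x ≠ x⁻¹ := ne_inv_of_ne_one hx0 hx1
      have hxq : x ^ q = x ∨ x ^ q = x⁻¹ := by
        have hm := hmem x (by simp [rootSet])
        have hne : x ^ q ≠ 1 := fun h => hx1 (hinj (by simp [h]))
        simp only [rootSet, Multiset.insert_eq_cons, Multiset.mem_cons, Multiset.mem_singleton, inv_inv,
          inv_one, hne, or_false] at hm
        tauto
      have hN : ∀ N, x ^ N = 1 → ∀ y ∈ rootSet x x⁻¹ 1, y ^ N = 1 ∧ (rootSet x x⁻¹ 1).count y ≤ 2 ^ 1 := by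
        intro N hN y hy
        refine ⟨?_, ?_⟩
        · simp only [rootSet, Multiset.insert_eq_cons, Multiset.mem_cons, Multiset.mem_singleton, inv_inv,
            inv_one] at hy
          rcases hy with rfl | rfl | rfl | rfl | rfl | rfl <;> simp [hN]
        · simp only [rootSet, Multiset.insert_eq_cons, inv_inv, inv_one, Multiset.count_cons,
            Multiset.count_singleton]
          by_cases hy1 : y = x <;> by_cases hy2 : y = x⁻¹ <;> by_cases hy3 : y = 1 <;> simp_all
      rcases hfix hx0 hxq with h | h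
      · exact ⟨2 * (q - 1), 1, q - 1, by simp, rfl, hN _ h⟩
      · exact ⟨2 * (q + 1), 1, q + 1, by simp, rfl, hN _ h⟩
  push Not at h1
  by_cases h2 : a = b ∨ a = c ∨ b = c
  · obtain ⟨x, y, hxy, hx1, hy1, hR⟩ : ∃ x y : E, x * x * y = 1 ∧ x ≠ 1 ∧ y ≠ 1 ∧ rootSet a b c = rootSet x x y := by
      rcases h2 with rfl | rfl | rfl
      · exact ⟨a, c, habc, h1.1, h1.2.2, rfl⟩
      · exact ⟨a, b, by linear_combination habc, h1.1, h1.2.1, perm2⟩
      · exact ⟨b, a, by linear_combination habc, h1.2.1, h1.1, perm3⟩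
    rw [hR] at hmap hmem ⊢
    have hx0 : x ≠ 0 := by rintro rfl; simp at hxy
    have hy0 : y ≠ 0 := by rintro rfl; simp at hxy
    have hxi : x ≠ x⁻¹ := fun h => hx1 (eq_one_of_self_inv (by nth_rewrite 2 [h]; exact mul_inv_cancel₀ hx0))
    have hyi : y ≠ y⁻¹ := fun h => hy1 (eq_one_of_self_inv (by nth_rewrite 2 [h]; exact mul_inv_cancel₀ hy0))
    by_cases h3 : x ^ 3 = 1
    · obtain hyx : y = x := mul_left_cancel₀ (mul_ne_zero hx0 hx0) (by rw [hxy, ← h3]; ring)
      rw [hyx] at *
      refine ⟨12, 2, 3, by simp, rfl, fun z hz => ⟨?_, ?_⟩⟩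
      · simp only [rootSet, Multiset.insert_eq_cons, Multiset.mem_cons, Multiset.mem_singleton, inv_inv,
          inv_one] at hz
        rcases hz with rfl | rfl | rfl | rfl | rfl | rfl <;> simp [h3]
      · simp only [rootSet, Multiset.insert_eq_cons, Multiset.count_cons, Multiset.count_singleton]
        by_cases hz1 : z = x <;> by_cases hz2 : z = x⁻¹ <;> simp_all
    · have hyx : y ≠ x := fun h => h3 (by rw [h] at hxy; linear_combination hxy)
      have hyx' : y ≠ x⁻¹ := fun h => by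
        rw [h, mul_assoc, mul_inv_cancel₀ hx0, mul_one] at hxy; exact hx1 hxy
      have hxy' : x ≠ y⁻¹ := fun h => hyx' (by rw [h, inv_inv])
      have hcx : (rootSet x x y).count x = 2 := by
        simp [rootSet, Multiset.count_cons, Multiset.count_singleton, hxi, hyx.symm, hxy']
      have hcy : ∀ z, (z = y ∨ z = y⁻¹) → (rootSet x x y).count z = 1 := by
        rintro z (rfl | rfl) <;>
          simp [rootSet, Multiset.count_cons, Multiset.count_singleton, hyi, hyi.symm, hyx, hyx', hxy'.symm,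
            inv_eq_iff_eq_inv]
      have hxq : x ^ q = x ∨ x ^ q = x⁻¹ := by
        have hm := hmem x (by simp [rootSet])
        have hc : (rootSet x x y).count (x ^ q) = 2 := by
          conv_lhs => rw [← hmap]
          rw [Multiset.count_map_eq_count' _ _ hinj, hcx]
        simp only [rootSet, Multiset.insert_eq_cons, Multiset.mem_cons, Multiset.mem_singleton] at hm
        rcases hm with h | h | h | h | h | h
        · exact Or.inl h
        · exact Or.inr h
        · exact Or.inl h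
        · exact Or.inr h
        · rw [hcy _ (Or.inl h)] at hc; omega
        · rw [hcy _ (Or.inr h)] at hc; omega
      have hN : ∀ N, x ^ N = 1 → ∀ z ∈ rootSet x x y, z ^ N = 1 ∧ (rootSet x x y).count z ≤ 2 ^ 1 := by
        intro N hN z hz
        have hy : y ^ N = 1 := by
          have := congrArg (· ^ N) hxy
          simpa [mul_pow, hN] using this
        refine ⟨?_, ?_⟩
        · simp only [rootSet, Multiset.insert_eq_cons, Multiset.mem_cons, Multiset.mem_singleton, inv_inv,
            inv_one] at hz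
          rcases hz with rfl | rfl | rfl | rfl | rfl | rfl <;> simp [hN, hy]
        · simp only [rootSet, Multiset.insert_eq_cons, Multiset.count_cons, Multiset.count_singleton]
          by_cases hz1 : z = x <;> by_cases hz2 : z = x⁻¹ <;> by_cases hz3 : z = y <;> by_cases hz4 : z = y⁻¹ <;>
            simp_all
      rcases hfix hx0 hxq with h | h
      · exact ⟨2 * (q - 1), 1, q - 1, by simp, rfl, hN _ h⟩
      · exact ⟨2 * (q + 1), 1, q + 1, by simp, rfl, hN _ h⟩
  push Not at h2
  have hne : ∀ {x y z : E}, x * y * z = 1 → z ≠ 1 → x ≠ y⁻¹ := fun {x y z} h hz hxy => by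
    have hy : y ≠ 0 := by rintro rfl; simp at h
    rw [hxy, inv_mul_cancel₀ hy, one_mul] at h
    exact hz h
  have hsq : ∀ {x : E}, x ≠ 0 → x ≠ 1 → x ≠ x⁻¹ := fun {x} h0 h1 => ne_inv_of_ne_one h0 h1
  have ha : a ≠ 0 := by rintro rfl; simp at habc
  have hb : b ≠ 0 := by rintro rfl; simp at habc
  have hc : c ≠ 0 := by rintro rfl; simp at habc
  have hnd : (rootSet a b c).Nodup := by
    have e1 := hne habc h1.2.2
    have e2 := hne (show a * c * b = 1 by linear_combination habc) h1.2.1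
    have e3 := hne (show b * c * a = 1 by linear_combination habc) h1.1
    simp [rootSet, Multiset.nodup_cons, h2.1, h2.2.1, h2.2.2, hsq ha h1.1, hsq hb h1.2.1, hsq hc h1.2.2,
      e1, e2, e3, inv_eq_iff_eq_inv]
  obtain ⟨N, hN, hall⟩ := exponent_of_distinct hq hinj habc hnd hmem
  refine ⟨N, 0, N, ?_, by simp, fun x hx => ⟨hall x hx, ?_⟩⟩
  · rcases hN with rfl | rfl | rfl <;> simp
  · simpa using Multiset.nodup_iff_count_le_one.mp hnd x

/-- The element orders of `G6 F`. -/
theorem exists_orderOf_dvd {F : Type u} [Field F] [Fintype F] [CharP F 2] {n : ℕ} (hF : Fintype.card F = 2 ^ n)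
    {g : GL (Fin 6) F} (hg : g ∈ G6 F) :
    ∃ m ∈ ({8, 12, 2 * (2 ^ n + 1), 2 * (2 ^ n - 1), (2 ^ n) ^ 2 - 1, (2 ^ n) ^ 2 + 2 ^ n + 1,
      (2 ^ n) ^ 2 - 2 ^ n + 1} : Set ℕ), orderOf g ∣ m := by
  classical
  obtain ⟨E, _, _, _, f, a, b, c, habc, hP⟩ := exists_roots hg
  haveI : ExpChar E 2 := ExpChar.prime Nat.prime_two
  set R := rootSet a b c
  set σ := iterateFrobenius E 2 n
  have hσ : ∀ x, σ x = x ^ 2 ^ n := fun x => iterateFrobenius_def ..
  have hσf : σ.comp f = f := RingHom.ext fun x => by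
    rw [RingHom.comp_apply, hσ, ← map_pow, ← hF, FiniteField.pow_card]
  have hmap : R.map (fun x => x ^ 2 ^ n) = R := by
    have h := congrArg (Polynomial.map σ) hP
    rw [Polynomial.map_map, hσf, hP, Polynomial.map_multiset_prod, Multiset.map_map] at h
    have h' := congrArg Polynomial.roots h
    rw [roots_multiset_prod_X_sub_C] at h'
    rw [show (Polynomial.map σ ∘ fun r => X - C r) = (fun r => X - C r) ∘ fun x : E => x ^ 2 ^ n by
      funext r; simp [hσ], ← Multiset.map_map, roots_multiset_prod_X_sub_C] at h'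
    exact h'.symm
  have hq : 2 ≤ 2 ^ n := hF ▸ Fintype.one_lt_card
  obtain ⟨m, k, N, hm, hkN, hall⟩ := exponent_of_roots hq (fun x y h => σ.injective (by rwa [hσ, hσ])) habc hmap
  refine ⟨m, hm, orderOf_dvd_of_pow_eq_one (Units.ext ?_)⟩
  have hN : 0 < N := by
    rcases Nat.eq_zero_or_pos N with rfl | h
    · have : 4 ≤ (2 ^ n) ^ 2 := by nlinarith
      rw [mul_zero] at hkN
      subst hkN
      simp only [Set.mem_insert_iff, Set.mem_singleton_iff] at hm
      omega
    · exact h
  have hdvd : (g : Matrix (Fin 6) (Fin 6) F).charpoly ∣ X ^ m - 1 := by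
    rw [← Polynomial.map_dvd_map f f.injective (charpoly_monic _), hP, Polynomial.map_sub, Polynomial.map_pow, map_X,
      Polynomial.map_one, ← hkN, mul_comm, pow_mul,
      show ((X : E[X]) ^ N) ^ 2 ^ k - 1 = (X ^ N - 1) ^ 2 ^ k by rw [sub_pow_char_pow, one_pow]]
    have hne : (X ^ N - 1 : E[X]) ≠ 0 := X_pow_sub_C_ne_zero hN 1
    refine (Multiset.prod_X_sub_C_dvd_iff_le_roots (pow_ne_zero _ hne) R).mpr ?_
    rw [roots_pow, Multiset.le_iff_count]
    intro x
    rw [Multiset.count_nsmul]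
    by_cases hx : x ∈ R
    · obtain ⟨h1, h2⟩ := hall x hx
      have : 1 ≤ (X ^ N - 1 : E[X]).roots.count x := Multiset.one_le_count_iff_mem.mpr (by
        rw [mem_roots hne]; simp [h1])
      calc R.count x ≤ 2 ^ k := h2
        _ ≤ _ := Nat.le_mul_of_pos_right _ this
    · rw [Multiset.count_eq_zero_of_notMem hx]; exact Nat.zero_le _
  obtain ⟨P, hPm⟩ := hdvd
  have := congrArg (aeval (g : Matrix (Fin 6) (Fin 6) F)) hPm
  rw [map_mul, aeval_self_charpoly, zero_mul, map_sub, map_one, map_pow, aeval_X, sub_eq_zero] at this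
  simpa using this

end CfsgLib.G2Spectrum
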