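import Cfsg.Agent.Lib.G2Spectrum.Mem

/-!
Over a splitting field the eigenvalues of an element of `G6` are `a^±1, b^±1, c^±1` with `abc = 1`.
-/

set_option autoImplicit false

namespace CfsgLib.G2Spectrum

open Matrix Polynomial CfsgLib.OrderDegrees.G2

universe u

section map

variable {F E : Type*} [Field F] [CharP F 2] [Field E] [CharP E 2] (f : F →+* E)

theorem map_Y (r : Fin 12) (t : F) : (Y r t).map f = Y r (f t) := by
  ext i j
  simp [Y, evM, ev, map_list_sum, List.map_map, Function.comp_def]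

theorem map_mem {g : GL (Fin 6) F} (hg : g ∈ G6 F) : GeneralLinearGroup.map f g ∈ G6 E := by
  induction hg using Subgroup.closure_induction with
  | mem x hx =>
    obtain ⟨r, t, rfl⟩ := hx
    rw [show GeneralLinearGroup.map f (Ygl r t) = Ygl r (f t) from Units.ext (map_Y f r t)]
    exact Ygl_mem r _
  | one => rw [map_one]; exact one_mem _
  | mul a b _ _ ha hb => rw [map_mul]; exact mul_mem ha hb
  | inv a _ ha => rw [map_inv]; exact inv_mem ha

end map

/-- An element of a finite field extension acting on a vector by a scalar. -/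
theorem exists_eigenvector {n : Type} [Fintype n] [DecidableEq n] [Nonempty n] {F : Type u} [Field F]
    [Fintype F] [CharP F 2] (M : Matrix n n F) :
    ∃ (E : Type u) (_ : Field E) (_ : Fintype E) (_ : CharP E 2) (f : F →+* E) (c : E) (v : n → E),
      v ≠ 0 ∧ (M.map f) *ᵥ v = c • v := by
  classical
  set E := M.charpoly.SplittingField
  haveI : CharP E 2 := charP_of_injective_algebraMap (algebraMap F E).injective 2
  haveI : Finite E := Module.finite_of_finite F
  letI : Fintype E := Fintype.ofFinite E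
  have hd : (M.charpoly.map (algebraMap F E)).degree ≠ 0 := by
    rw [Polynomial.degree_map, Matrix.charpoly_degree_eq_dim]
    exact_mod_cast Fintype.card_ne_zero
  obtain ⟨c, hc⟩ := (SplittingField.splits M.charpoly).exists_eval_eq_zero hd
  rw [← Matrix.charpoly_map, Matrix.eval_charpoly] at hc
  obtain ⟨v, hv, hv'⟩ := Matrix.exists_mulVec_eq_zero_iff.mpr hc
  refine ⟨E, inferInstance, inferInstance, inferInstance, algebraMap F E, c, v, hv, ?_⟩
  rw [sub_mulVec, sub_eq_zero, scalar_apply] at hv'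
  rw [← hv']
  funext i
  simp [mulVec_diagonal]

/-- The multiset of the eigenvalues. -/
def rootSet {E : Type*} [Field E] (a b c : E) : Multiset E := {a, a⁻¹, b, b⁻¹, c, c⁻¹}

variable {F : Type u} [Field F] [Fintype F] [CharP F 2]

theorem exists_line {g : GL (Fin 6) F} (hg : g ∈ G6 F) :
    ∃ (E : Type u) (_ : Field E) (_ : Fintype E) (_ : CharP E 2) (f : F →+* E) (h : GL (Fin 6) E) (a : E),
      h ∈ G6 E ∧ a ≠ 0 ∧ LineShape (h : Matrix (Fin 6) (Fin 6) E) a ∧
        (g : Matrix (Fin 6) (Fin 6) F).charpoly.map f = (h : Matrix (Fin 6) (Fin 6) E).charpoly := by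
  obtain ⟨E, _, _, _, f, c, v, hv, hgv⟩ := exists_eigenvector (g : Matrix (Fin 6) (Fin 6) F)
  have hgm := map_mem f hg
  obtain ⟨k, hk, hkv⟩ := exists_move hv
  set h := k * GeneralLinearGroup.map f g * k⁻¹ with hh
  have hmem : h ∈ G6 E := mul_mem (mul_mem hk hgm) (inv_mem hk)
  have hhv : (h : Matrix (Fin 6) (Fin 6) E) *ᵥ e0 = c • e0 := by
    unfold e0
    conv_lhs => rw [← hkv, hh, mulVec_mulVec, ← Units.val_mul, inv_mul_cancel_right, Units.val_mul,
      ← mulVec_mulVec]
    rw [show (GeneralLinearGroup.map f g : Matrix (Fin 6) (Fin 6) E) *ᵥ v = c • v from hgv, mulVec_smul, hkv]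
  have hc : c ≠ 0 := fun hc => by
    have h1 := congrArg (fun w => ((h⁻¹ : GL (Fin 6) E) : Matrix (Fin 6) (Fin 6) E) *ᵥ w) hhv
    simp only [mulVec_mulVec, Units.inv_mul, one_mulVec, hc, zero_smul, mulVec_zero] at h1
    simpa [e0] using congrFun h1 0
  refine ⟨E, inferInstance, inferInstance, inferInstance, f, h, c, hmem, hc,
    lineShape_of_inv h.mul_inv (inv_of_mem hmem) (inv_of_mem (inv_mem hmem)) hc hhv, ?_⟩
  rw [← Matrix.charpoly_map, hh, Units.val_mul, Units.val_mul, coe_units_inv,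
    charpoly_units_conj]
  rfl

/-- An element of the Levi subgroup making a `2 × 2` block upper triangular. -/
theorem exists_triangular {E : Type u} [Field E] {D : Matrix (Fin 2) (Fin 2) E} {d : E} {v : Fin 2 → E}
    (hv : v ≠ 0) (hDv : D *ᵥ v = d • v) :
    ∃ P : Matrix (Fin 2) (Fin 2) E, P.det = 1 ∧
      ∀ Q : Matrix (Fin 2) (Fin 2) E, Q * P = 1 → (Q * D * P) 1 0 = 0 := by
  obtain ⟨P, hP, hP0⟩ : ∃ P : Matrix (Fin 2) (Fin 2) E, P.det = 1 ∧ ∀ i, P i 0 = v i := by
    by_cases h0 : v 0 = 0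
    · have h1 : v 1 ≠ 0 := fun h1 => hv (funext fun i => by fin_cases i <;> assumption)
      exact ⟨!![0, -(v 1)⁻¹; v 1, 0], by simp [det_fin_two, h1], fun i => by fin_cases i <;> simp [h0]⟩
    · exact ⟨!![v 0, 0; v 1, (v 0)⁻¹], by simp [det_fin_two, h0], fun i => by fin_cases i <;> simp⟩
  refine ⟨P, hP, fun Q hQ => ?_⟩
  have hPe : P *ᵥ Pi.single 0 1 = v := by rw [mulVec_single_one]; exact funext hP0
  have h1 : (Q * D * P) *ᵥ Pi.single 0 1 = d • Pi.single 0 1 := by
    rw [← mulVec_mulVec, hPe, ← mulVec_mulVec, hDv, mulVec_smul, ← hPe, mulVec_mulVec, hQ, one_mulVec]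
  have := congrFun h1 1
  simpa using this

theorem exists_roots {g : GL (Fin 6) F} (hg : g ∈ G6 F) :
    ∃ (E : Type u) (_ : Field E) (_ : Fintype E) (_ : CharP E 2) (f : F →+* E) (a b c : E),
      a * b * c = 1 ∧
        (g : Matrix (Fin 6) (Fin 6) F).charpoly.map f = ((rootSet a b c).map fun r => X - C r).prod := by
  obtain ⟨E1, _, _, _, f, h, a, hmem, ha, hs, hcp⟩ := exists_line hg
  set M := (h : Matrix (Fin 6) (Fin 6) E1) with hM
  obtain ⟨E, _, _, _, f', d, v, hv, hDv⟩ := exists_eigenvector !![M 3 3, M 3 4; M 4 3, M 4 4]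
  obtain ⟨P, hP, hPQ⟩ := exists_triangular hv hDv
  set D : Matrix (Fin 2) (Fin 2) E := (!![M 3 3, M 3 4; M 4 3, M 4 4]).map f' with hD
  have hPu : IsUnit P.det := by rw [hP]; exact isUnit_one
  have hQd : P⁻¹.det = 1 := by rw [det_nonsing_inv, hP, Ring.inverse_one]
  have hQP : leviMat P⁻¹ * leviMat P = 1 := by rw [← leviMat_mul, nonsing_inv_mul P hPu, leviMat_one]
  have hPQ' : leviMat P * leviMat P⁻¹ = 1 := by rw [← leviMat_mul, mul_nonsing_inv P hPu, leviMat_one]
  set L : GL (Fin 6) E := ⟨leviMat P⁻¹, leviMat P, hQP, hPQ'⟩ with hL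
  set k := L * GeneralLinearGroup.map f' h * L⁻¹ with hk
  have hLi : Inv (L : Matrix (Fin 6) (Fin 6) E) := inv_leviMat (by rw [hQd]; exact one_ne_zero)
  have hki : Inv (k : Matrix (Fin 6) (Fin 6) E) :=
    (hLi.mul (inv_of_mem (map_mem f' hmem))).mul (inv_leviMat (by rw [hP]; exact one_ne_zero))
  have hk0 : (k : Matrix (Fin 6) (Fin 6) E) *ᵥ e0 = f' a • e0 := by
    have l0 : ∀ R : Matrix (Fin 2) (Fin 2) E, R.det = 1 → leviMat R *ᵥ e0 = e0 := fun R hR => by
      funext i; fin_cases i <;> simp [leviMat, e0, hR, mulVec, dotProduct, Fin.sum_univ_six]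
    have m0 : (M.map f') *ᵥ e0 = f' a • e0 := by
      rw [e0_eq, mulVec_single_one]
      funext i
      simp only [col_apply, Matrix.map_apply, hs.col, Pi.smul_apply, Pi.single_apply, smul_eq_mul]
      split_ifs <;> simp
    show (leviMat P⁻¹ * M.map f' * leviMat P) *ᵥ e0 = _
    rw [← mulVec_mulVec, l0 P hP, ← mulVec_mulVec, m0, mulVec_smul, l0 _ hQd]
  set N := (k : Matrix (Fin 6) (Fin 6) E) with hN
  have s := lineShape_of_inv k.mul_inv hki (CfsgLib.OrderDegrees.G2.Inv.inv k.mul_inv hki)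
    ((map_ne_zero f').mpr ha) hk0
  rw [← hN] at s
  have N43 : N 4 3 = 0 := by
    have e : N 4 3 = (P⁻¹ * D * P) 1 0 := by
      show (leviMat P⁻¹ * M.map f' * leviMat P) 4 3 = _
      simp [leviMat, hP, hQd, hD, Matrix.mul_apply, vecMul, dotProduct, Fin.sum_univ_six, Fin.sum_univ_two]
    rw [e]; exact hPQ _ (nonsing_inv_mul P hPu)
  have h53 : N 5 3 = 0 := by simp [s.row]
  have d1 : f' a * (N 3 3 * N 4 4) = 1 := by simpa [N43] using s.det
  have N33 : N 3 3 ≠ 0 := fun h0 => by simp [h0] at d1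
  have N21 : N 2 1 = 0 := by simpa [N43, N33] using s.w13
  have w14 : N 1 1 * N 4 4 = 1 := by simpa [N21] using s.w14
  have w23 : N 2 2 * N 3 3 = 1 := by simpa [N43] using s.w23
  have htri : N.BlockTriangular id := by
    intro i j (hij : j < i)
    fin_cases i <;> fin_cases j <;> first
      | exact absurd hij (by decide)
      | simp [s.col, s.row, s.z31, s.z32, s.z41, s.z42, N43, N21]
  refine ⟨E, inferInstance, inferInstance, inferInstance, f'.comp f, f' a, N 3 3, N 4 4,
    by linear_combination d1, ?_⟩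
  rw [← Polynomial.map_map, hcp, ← Matrix.charpoly_map,
    ← charpoly_units_conj L (M.map f'), show (L : Matrix (Fin 6) (Fin 6) E) * M.map f' * (L : Matrix (Fin 6) (Fin 6) E)⁻¹ = N by
      rw [hN, hk, Units.val_mul, Units.val_mul, coe_units_inv]; rfl,
    charpoly_of_isUpperTriangular N htri, Fin.prod_univ_six, rootSet]
  have e55 : N 5 5 = (f' a)⁻¹ := by simp [s.row]
  have e00 : N 0 0 = f' a := by simp [s.col]
  simp only [Multiset.insert_eq_cons, Multiset.map_cons, Multiset.prod_cons, Multiset.map_singleton,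
    Multiset.prod_singleton, e00, e55, eq_inv_of_mul_eq_one_left w14, eq_inv_of_mul_eq_one_left w23]
  ring

end CfsgLib.G2Spectrum
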