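import Cfsg.Agent.Lib.G2Spectrum.Mem
import Cfsg.Agent.Lib.CharDegrees.SUElements

/-!
The subgroup `SU₃(q)` of `G₂(q)`, `q` even: the six dimensional space as a hermitian space over the field
with `q²` elements, and an element of order `q² - q + 1`.
-/

set_option autoImplicit false

namespace CfsgLib.G2Spectrum

open Matrix CfsgLib.OrderDegrees.G2

section identities

variable {K : Type*} [Field K] [CharP K 2]

theorem ofNat_mod_two (n : ℕ) [n.AtLeastTwo] : (OfNat.ofNat n : K) = ((n % 2 : ℕ) : K) :=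
  (Nat.cast_ofNat (R := K)).symm.trans ((CharP.natCast_eq_natCast K 2).mpr (Nat.mod_modEq n 2).symm)

/-- The permanent of three columns. -/
def P3 (a b c : Fin 3 → K) : K :=
  a 0 * (b 1 * c 2 + b 2 * c 1) + a 1 * (b 0 * c 2 + b 2 * c 0) + a 2 * (b 0 * c 1 + b 1 * c 0)

theorem det_eq_P3 (a b c : Fin 3 → K) :
    (Matrix.of fun m i => (![a, b, c] : Fin 3 → Fin 3 → K) i m).det = P3 a b c := by
  simp [det_fin_three, P3]
  ring_nf
  simp [CharTwo.sub_eq_add]
  try ring

theorem P3_expand (t b : K) (x0 x1 x2 y0 y1 y2 : Fin 3 → K) :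
    P3 (x0 + t • y0) (x1 + b • y2) (x2 + b • y1) = P3 x0 x1 x2 + b * P3 x0 x1 y1 + b * P3 x0 y2 x2 +
      b ^ 2 * P3 x0 y2 y1 + t * P3 y0 x1 x2 + t * b * P3 y0 x1 y1 + t * b * P3 y0 y2 x2 +
      t * b ^ 2 * P3 y0 y2 y1 := by
  simp [P3]
  ring

theorem P3_mix (t e : K) (a p r : Fin 3 → K) :
    P3 a (e • r + (t + 1) • p) (e • r + t • p) = e * P3 a p r := by
  simp [P3]
  linear_combination (e ^ 2 * (a 0 * r 1 * r 2 + a 1 * r 0 * r 2 + a 2 * r 0 * r 1) +
    e * t * (a 0 * (p 1 * r 2 + p 2 * r 1) + a 1 * (p 0 * r 2 + p 2 * r 0) + a 2 * (p 0 * r 1 + p 1 * r 0)) +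
    (t + 1) * t * (a 0 * p 1 * p 2 + a 1 * p 0 * p 2 + a 2 * p 0 * p 1)) * two_zero (F := K)

theorem P3_swap (a b c : Fin 3 → K) : P3 a b c = P3 a c b := by simp [P3]; ring

theorem P3_self (e : K) (a b : Fin 3 → K) : P3 (a + e • b) a b = 0 := by
  simp [P3]
  linear_combination ((a 0 * a 1 * b 2 + a 0 * a 2 * b 1 + a 1 * a 2 * b 0) +
    e * (b 0 * b 1 * a 2 + b 0 * b 2 * a 1 + b 1 * b 2 * a 0)) * two_zero (F := K)

theorem P3_add_left (e : K) (a a' b c : Fin 3 → K) : P3 (a + e • a') b c = P3 a b c + e * P3 a' b c := by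
  simp [P3]; ring

variable {θ e s : K}

/-- The coordinates of the hermitian space. -/
def wv (θ e s : K) (u : Fin 6 → K) : Fin 3 → K :=
  ![u 0 + θ * u 5, e * (u 4 + (1 + s * θ) * u 2) + (θ + 1) * (u 3 + (1 + s * θ) * u 1),
    e * (u 4 + (1 + s * θ) * u 2) + θ * (u 3 + (1 + s * θ) * u 1)]

theorem norm_identity (hθ : θ ^ 2 + θ = e ^ 2) (hs : s * e = 1) (u : Fin 6 → K) :
    wv θ e s u ⬝ᵥ wv (θ + 1) e s u = quad u + (u 0 + e * u 5) ^ 2 := by
  have h1 : wv θ e s u ⬝ᵥ wv (θ + 1) e s u =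
      u 0 ^ 2 + u 0 * u 5 + (θ ^ 2 + θ) * u 5 ^ 2 + s * e * (u 1 * u 4 + u 2 * u 3) := by
    simp [wv, dotProduct, Fin.sum_univ_three]
    ring_nf
    simp [ofNat_mod_two]
    try ring
  rw [h1, hθ, hs, quad, CharTwo.add_sq]
  ring

theorem cubic_identity (hθ : θ ^ 2 + θ = e ^ 2) (hs : s * e = 1) (x : Fin 3 → Fin 6 → K) :
    s * ((θ + 1) * P3 (fun m => wv θ e s (x m) 0) (fun m => wv θ e s (x m) 1) (fun m => wv θ e s (x m) 2) +
      θ * P3 (fun m => wv (θ + 1) e s (x m) 0) (fun m => wv (θ + 1) e s (x m) 1)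
        (fun m => wv (θ + 1) e s (x m) 2)) =
    tri (x 0) (x 1) (x 2) + (x 0 0 + e * x 0 5) * omega (x 1) (x 2) + (x 1 0 + e * x 1 5) * omega (x 2) (x 0) +
      (x 2 0 + e * x 2 5) * omega (x 0) (x 1) := by
  obtain ⟨X, hX⟩ : ∃ X : Fin 6 → Fin 3 → K, X = fun i m => x m i := ⟨_, rfl⟩
  have hw : ∀ t : K, P3 (fun m => wv t e s (x m) 0) (fun m => wv t e s (x m) 1) (fun m => wv t e s (x m) 2) =
      e * P3 (X 0 + t • X 5) (X 3 + (1 + s * t) • X 1) (X 4 + (1 + s * t) • X 2) := fun t => by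
    rw [← P3_mix t e]
    subst hX
    simp [wv, P3]
    ring
  have c2 : (1 + 1 : K) = 0 := CharTwo.add_self_eq_zero 1
  rw [hw, hw, P3_expand, P3_expand]
  have hR : tri (x 0) (x 1) (x 2) + (x 0 0 + e * x 0 5) * omega (x 1) (x 2) +
      (x 1 0 + e * x 1 5) * omega (x 2) (x 0) + (x 2 0 + e * x 2 5) * omega (x 0) (x 1) =
      P3 (X 0) (X 3) (X 4) + P3 (X 5) (X 2) (X 1) + P3 (X 0 + e • X 5) (X 0) (X 5) +
        P3 (X 0 + e • X 5) (X 1) (X 4) + P3 (X 0 + e • X 5) (X 2) (X 3) := by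
    subst hX
    simp [tri, det3, omega, P3]
    ring
  rw [hR, P3_self, P3_add_left, P3_add_left, P3_swap (X 0) (X 3) (X 2), P3_swap (X 5) (X 3) (X 2),
    P3_swap (X 5) (X 2) (X 1)]
  generalize P3 (X 0) (X 3) (X 4) = A1
  generalize P3 (X 0) (X 2) (X 3) = A2
  generalize P3 (X 0) (X 1) (X 4) = A3
  generalize P3 (X 0) (X 1) (X 2) = A4
  generalize P3 (X 5) (X 3) (X 4) = A5
  generalize P3 (X 5) (X 2) (X 3) = A6
  generalize P3 (X 5) (X 1) (X 4) = A7
  generalize P3 (X 5) (X 1) (X 2) = A8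
  have key : (θ + 1) * (A1 + (1 + s * θ) * A2 + (1 + s * θ) * A3 + (1 + s * θ) ^ 2 * A4 + θ * A5 +
        θ * (1 + s * θ) * A6 + θ * (1 + s * θ) * A7 + θ * (1 + s * θ) ^ 2 * A8) +
      θ * (A1 + (1 + s * (θ + 1)) * A2 + (1 + s * (θ + 1)) * A3 + (1 + s * (θ + 1)) ^ 2 * A4 + (θ + 1) * A5 +
        (θ + 1) * (1 + s * (θ + 1)) * A6 + (θ + 1) * (1 + s * (θ + 1)) * A7 +
        (θ + 1) * (1 + s * (θ + 1)) ^ 2 * A8) =
      A1 + A2 + A3 + (1 + s ^ 2 * (θ ^ 2 + θ)) * A4 + (θ ^ 2 + θ) * s * (A6 + A7) +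
        (θ ^ 2 + θ) * s ^ 2 * A8 := by
    ring_nf
    simp [ofNat_mod_two]
    try ring
  linear_combination (s * e) * key +
    (A1 + A2 + A3 + (s ^ 2 * e ^ 2 + s * e + 2) * A4 + e * (s * e + 1) * (A6 + A7) +
      (s ^ 2 * e ^ 2 + s * e + 1) * A8) * hs +
    (s * e * s ^ 2 * A4 + s * e * s * (A6 + A7) + s * e * s ^ 2 * A8) * hθ + A4 * c2

end identities

open CfsgLib.Generators CfsgLib.CharDegrees in
set_option maxHeartbeats 1000000 in
/-- `G6 F` has an element of order `q² - q + 1`. -/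
theorem exists_order_minus {F : Type*} [Field F] [Fintype F] [CharP F 2] {n : ℕ}
    (hF : Fintype.card F = 2 ^ n) :
    ∃ g ∈ G6 F, orderOf g = (2 ^ n) ^ 2 - 2 ^ n + 1 := by
  classical
  set q := 2 ^ n with hqdef
  let K := FiniteField.Extension F 2 2
  haveI : CharP K 2 := charP_of_injective_algebraMap (algebraMap F K).injective 2
  haveI : Fact (Nat.Prime 2) := ⟨Nat.prime_two⟩
  letI : Fintype K := Fintype.ofFinite K
  have hK : Fintype.card K = q ^ 2 := by
    rw [← Nat.card_eq_fintype_card, FiniteField.natCard_extension, Nat.card_eq_fintype_card, hF]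
  obtain ⟨σ, hσ, hσσ⟩ := exists_frobenius_half hK
  set f := algebraMap F K with hf
  have hσf : ∀ x, σ (f x) = f x := fun x => by rw [hσ, ← map_pow, ← hF, FiniteField.pow_card]
  obtain ⟨θ, hθ1⟩ := Algebra.trace_surjective F K 1
  have hσθ : σ θ = θ + 1 := by
    have h : f 1 = θ + σ θ := by
      rw [← hθ1, hf, FiniteField.algebraMap_trace_eq_sum_pow, FiniteField.finrank_extension,
        Finset.sum_range_succ, Finset.sum_range_one, pow_zero, pow_one, pow_one, Nat.card_eq_fintype_card,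
        hF, hσ]
    rw [map_one] at h
    linear_combination -h - θ * two_zero (F := K) + (σ θ) * two_zero (F := K) * 0 + two_zero (F := K) * 0
  have hind : ∀ a b : F, f a + f b * θ = 0 → a = 0 ∧ b = 0 := fun a b h => by
    have h' := congrArg σ h
    rw [map_add, map_mul, hσf, hσf, hσθ, map_zero] at h'
    have hb : f b = 0 := by linear_combination h' - h
    rw [hb, zero_mul, add_zero] at h
    exact ⟨(map_eq_zero f).mp h, (map_eq_zero f).mp hb⟩
  have hdec : ∀ x : K, ∃ a b : F, f a + f b * θ = x := by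
    let m : F × F → K := fun ab => f ab.1 + f ab.2 * θ
    have hm : Function.Bijective m := by
      rw [Fintype.bijective_iff_injective_and_card, Fintype.card_prod, hK, hF, sq]
      refine ⟨fun x y h => ?_, rfl⟩
      obtain ⟨h1, h2⟩ := hind (x.1 - y.1) (x.2 - y.2) (by
        rw [map_sub, map_sub]; linear_combination h)
      exact Prod.ext (sub_eq_zero.mp h1) (sub_eq_zero.mp h2)
    exact fun x => ⟨(hm.2 x).choose.1, (hm.2 x).choose.2, (hm.2 x).choose_spec⟩
  obtain ⟨ε, hε⟩ : ∃ ε : F, f ε = θ ^ 2 + θ := by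
    obtain ⟨a, b, hab⟩ := hdec (θ ^ 2 + θ)
    have h := congrArg σ hab
    rw [map_add, map_mul, hσf, hσf, hσθ, map_add σ, map_pow, hσθ] at h
    have hb : f b = 0 := by linear_combination h - hab + (θ + 1) * two_zero (F := K)
    exact ⟨a, by rw [← hab, hb, zero_mul, add_zero]⟩
  obtain ⟨e, he⟩ := FiniteField.isSquare_of_char_two (ringChar.eq F 2) ε
  have hθ : θ ^ 2 + θ = f e ^ 2 := by rw [← hε, he, map_mul, sq]
  have he0 : e ≠ 0 := fun h => by
    rw [h, map_zero, zero_pow two_ne_zero] at hθ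
    rcases mul_eq_zero.mp (show θ * (θ + 1) = 0 by linear_combination hθ) with h1 | h1
    · rw [h1, map_zero, zero_add] at hσθ; exact one_ne_zero hσθ.symm
    · have := hind 1 1 (by rw [map_one]; linear_combination h1)
      exact one_ne_zero this.1
  set s := f e⁻¹
  have hs : s * f e = 1 := by rw [← map_mul, inv_mul_cancel₀ he0, map_one]
  let φ : (Fin 6 → F) →ₗ[F] (Fin 3 → K) :=
    { toFun := fun u => wv θ (f e) s (f ∘ u)
      map_add' := fun u v => by funext i; fin_cases i <;> simp [wv] <;> ring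
      map_smul' := fun c u => by funext i; fin_cases i <;> simp [wv, Algebra.smul_def, hf] <;> ring }
  have hφ : Function.Bijective φ := by
    rw [Fintype.bijective_iff_injective_and_card, Fintype.card_fun, Fintype.card_fun, Fintype.card_fin,
      Fintype.card_fin, hK, hF]
    refine ⟨(injective_iff_map_eq_zero φ).mpr fun u hu => ?_, by ring⟩
    have h0 := congrFun hu 0
    have h1 := congrFun hu 1
    have h2 := congrFun hu 2
    simp [φ, wv] at h0 h1 h2
    obtain ⟨u0, u5⟩ := hind _ _ (show f (u 0) + f (u 5) * θ = 0 by linear_combination h0)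
    have hp : f (u 3) + (1 + s * θ) * f (u 1) = 0 := by linear_combination h1 - h2
    have hr : f (u 4) + (1 + s * θ) * f (u 2) = 0 := by
      have : f e * (f (u 4) + (1 + s * θ) * f (u 2)) = 0 := by linear_combination h2 - θ * hp
      exact (mul_eq_zero.mp this).resolve_left fun h => he0 ((map_eq_zero f).mp h)
    obtain ⟨u31, u1⟩ := hind (u 3 + u 1) (e⁻¹ * u 1) (by rw [map_add, map_mul]; linear_combination hp)
    obtain ⟨u42, u2⟩ := hind (u 4 + u 2) (e⁻¹ * u 2) (by rw [map_add, map_mul]; linear_combination hr)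
    simp [he0] at u1 u2
    simp [u1] at u31
    simp [u2] at u42
    funext i; fin_cases i <;> simp [*]
  let Φ : (Fin 6 → F) ≃ₗ[F] (Fin 3 → K) := LinearEquiv.ofBijective φ hφ
  obtain ⟨T, hT⟩ : ∃ T : Matrix (Fin 3) (Fin 3) K → Matrix (Fin 6) (Fin 6) F,
      ∀ M u, Φ (T M *ᵥ u) = M *ᵥ Φ u := by
    refine ⟨fun M => LinearMap.toMatrix' ((Φ.symm.toLinearMap.comp ((M.mulVecLin).restrictScalars F)).comp
      Φ.toLinearMap), fun M u => ?_⟩
    rw [← Matrix.toLin'_apply, Matrix.toLin'_toMatrix']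
    simp
  have hT' : ∀ M N : Matrix (Fin 6) (Fin 6) F, (∀ u, Φ (M *ᵥ u) = Φ (N *ᵥ u)) → M = N := fun M N h =>
    Matrix.ext_of_mulVec_single fun i => Φ.injective (h _)
  let Ψ : Matrix (Fin 3) (Fin 3) K →* Matrix (Fin 6) (Fin 6) F :=
    { toFun := T
      map_one' := hT' _ _ fun u => by rw [hT, one_mulVec, one_mulVec]
      map_mul' := fun M N => hT' _ _ fun u => by rw [hT, ← mulVec_mulVec, ← mulVec_mulVec, hT, hT] }
  have hΨ : ∀ M u, Φ (Ψ M *ᵥ u) = M *ᵥ Φ u := hT
  have hΨinj : Function.Injective Ψ := fun M N h => Matrix.ext_of_mulVec_single fun i => by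
    have := hΨ M (Φ.symm (Pi.single i 1))
    rw [h, hΨ] at this
    simpa using this.symm
  -- an element of the unitary group of order `q ^ 2 - q + 1`
  obtain ⟨R, _, _, _, τ, ψ, y, hR, hH, hy, hyo⟩ :=
    CfsgLib.CharDegrees.exists_singer_data (n := 3) hK 2 n hqdef (by omega)
  obtain ⟨Θ, hΘ, hadj⟩ := hH.exists_matrix hK hR
  have hU : qAdjoint q (Θ y) * Θ y = 1 := by rw [hadj, ← map_mul, hy, map_one]
  have hq2 : 2 ≤ q := hF ▸ Fintype.one_lt_card
  have halt : (altSum q 3).natAbs = q ^ 2 - q + 1 := by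
    have h : altSum q 3 = ((q ^ 2 - q + 1 : ℕ) : ℤ) := by
      rw [Nat.cast_add, Nat.cast_sub (Nat.le_self_pow two_ne_zero q)]
      simp [altSum, Finset.sum_range_succ]
      ring
    rw [h, Int.natAbs_natCast]
  have hord : orderOf (y ^ (q + 1)) = q ^ 2 - q + 1 := by
    rw [orderOf_pow' y (by omega), hyo, halt, Nat.gcd_mul_left_left, Nat.mul_div_cancel _ (by omega)]
  set M := Θ (y ^ (q + 1)) with hM
  have hMu : qAdjoint q M * M = 1 := by
    rw [hadj, ← map_mul, map_pow, ← mul_pow, hy, one_pow, map_one]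
  have hMd : M.det = 1 := by
    have h1 := congrArg Matrix.det hU
    rw [det_mul, det_one, qAdjoint, det_transpose, show (Θ y).map (fun x => x ^ q) = σ.mapMatrix (Θ y) by
      ext i j; simp [hσ], ← RingHom.map_det, hσ] at h1
    rw [hM, map_pow, det_pow, pow_succ, h1]
  have hMo : orderOf (Ψ M) = q ^ 2 - q + 1 := by
    rw [orderOf_injective Ψ hΨinj, hM, ← hord]
    exact orderOf_injective Θ.toRingHom.toMonoidHom hΘ _
  let L : (Fin 6 → F) → F := fun u => u 0 + e * u 5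
  have hσw : ∀ u : Fin 6 → F, (fun i => Φ u i ^ q) = wv (θ + 1) (f e) s (f ∘ u) := fun u => by
    funext i
    rw [← hσ]
    fin_cases i <;> simp [Φ, φ, wv, hσf, hσθ, s]
  have hnorm : ∀ u : Fin 6 → F, f (quad u + L u ^ 2) = Φ u ⬝ᵥ fun i => Φ u i ^ q := fun u => by
    rw [hσw]
    refine (Eq.trans ?_ (norm_identity hθ hs (f ∘ u)).symm)
    simp [quad, L]
  have hnormM : ∀ W : Fin 3 → K, (M *ᵥ W) ⬝ᵥ (fun i => (M *ᵥ W) i ^ q) = W ⬝ᵥ fun i => W i ^ q := fun W => by
    have h : (fun i => (M *ᵥ W) i ^ q) = M.map σ *ᵥ fun i => W i ^ q := by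
      funext i; simp only [← hσ]; simp [mulVec, dotProduct, map_sum]
    have hT : M.transpose * M.map σ = 1 := by
      have := congrArg Matrix.transpose hMu
      rw [transpose_mul, qAdjoint, transpose_transpose, transpose_one] at this
      rw [show M.map σ = M.map (fun x => x ^ q) by ext i j; simp [hσ]]
      exact this
    rw [h, ← vecMul_transpose, ← dotProduct_mulVec, mulVec_mulVec, hT, one_mulVec]
  have hquad : ∀ u, quad (Ψ M *ᵥ u) = quad u + (L u + L (Ψ M *ᵥ u)) ^ 2 := fun u => by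
    have h : quad (Ψ M *ᵥ u) + L (Ψ M *ᵥ u) ^ 2 = quad u + L u ^ 2 := f.injective (by
      rw [hnorm, hnorm, hΨ, hnormM])
    linear_combination h + (L u ^ 2 * 0 - L (Ψ M *ᵥ u) ^ 2 - L u * L (Ψ M *ᵥ u)) * two_zero (F := F)
  have homega : ∀ u v, omega (Ψ M *ᵥ u) (Ψ M *ᵥ v) = omega u v := fun u v => by
    have polar : ∀ a b : Fin 6 → F, quad (a + b) = quad a + quad b + omega a b := fun a b => by
      simp [quad, omega]; ring
    have h1 := hquad (u + v)
    rw [mulVec_add, polar, polar, hquad u, hquad v] at h1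
    have hL : ∀ a b, L (a + b) = L a + L b := fun a b => by simp [L]; ring
    rw [hL, hL] at h1
    linear_combination h1 + (L u + L (Ψ M *ᵥ u)) * (L v + L (Ψ M *ᵥ v)) * two_zero (F := F)
  have hcubic : ∀ x : Fin 3 → Fin 6 → F,
      f (tri (x 0) (x 1) (x 2) + L (x 0) * omega (x 1) (x 2) + L (x 1) * omega (x 2) (x 0) +
        L (x 2) * omega (x 0) (x 1)) =
      s * ((θ + 1) * (Matrix.of fun m i => Φ (x m) i).det +
        θ * σ (Matrix.of fun m i => Φ (x m) i).det) := fun x => by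
    refine (Eq.trans ?_ (cubic_identity hθ hs (fun m => f ∘ x m)).symm).trans ?_
    · simp [tri, det3, omega, L]
    · rw [← det_eq_P3, ← det_eq_P3, RingHom.map_det]
      congr 4
      · ext m i; fin_cases i <;> rfl
      · ext m i
        rw [RingHom.mapMatrix_apply, map_apply, of_apply, of_apply, hσ]
        have := congrFun (hσw (x m)) i
        fin_cases i <;> exact this.symm
  have htri : ∀ u v z, tri (Ψ M *ᵥ u) (Ψ M *ᵥ v) (Ψ M *ᵥ z) = tri u v z + (L u + L (Ψ M *ᵥ u)) * omega v z +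
      (L v + L (Ψ M *ᵥ v)) * omega z u + (L z + L (Ψ M *ᵥ z)) * omega u v := fun u v z => by
    have hx := hcubic fun m => Ψ M *ᵥ ![u, v, z] m
    have hy' := hcubic ![u, v, z]
    have hW : (Matrix.of fun m i => Φ (Ψ M *ᵥ ![u, v, z] m) i) =
        (Matrix.of fun m i => Φ (![u, v, z] m) i) * M.transpose := by
      ext m i
      rw [of_apply, hΨ]
      simp [mul_apply, mulVec, dotProduct, mul_comm]
    rw [hW, det_mul, det_transpose, hMd, mul_one, ← hy'] at hx
    have h := f.injective hx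
    simp only [homega, cons_val_zero, cons_val_one, cons_val] at h
    linear_combination h - (L (Ψ M *ᵥ u) * omega v z + L (Ψ M *ᵥ v) * omega z u +
      L (Ψ M *ᵥ z) * omega u v) * two_zero (F := F)
  have hinv : Inv (Ψ M) := ⟨homega, _, hquad, htri⟩
  have hpow : Ψ M ^ (q ^ 2 - q + 1) = 1 := hMo ▸ pow_orderOf_eq_one _
  obtain ⟨g, hg⟩ : IsUnit (Ψ M) := IsUnit.of_pow_eq_one hpow (by omega)
  exact ⟨g, mem_of_inv (hg ▸ hinv), by rw [← orderOf_units, hg, hMo]⟩

end CfsgLib.G2Spectrum
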